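import Mathlib
import Cfsg.Agent.QE.Defs
import Cfsg.Agent.QT.Rank
import Cfsg.Agent.GT.Components
import Cfsg.Agent.GT.PPrimeCore

/-! # S1848, piece QE-Set: the counterexample -/

set_option autoImplicit false
set_option linter.unusedVariables false
set_option linter.unusedSectionVars false

namespace Cfsg.Agent.QE

open Cfsg Subgroup Cfsg.Agent.GT Cfsg.Agent.Inv Cfsg.Agent.Cmp
open scoped commutatorElement

universe u

variable {G : Type u} [Group G] [Finite G] {T L : Subgroup G} {z u : G}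

theorem SetA.rk2 (hQ : IsQuasithin G) {t : G} (ht : orderOf t = 2) {p : ℕ} (hp : p.Prime) (h2 : p ≠ 2) :
    PRankLE p 2 (C1 t) :=
  (hQ p hp h2 _ ⟨zpowers t, (Two.of_two ht).isPGroup, fun h => by
    rw [zpowers_eq_bot.mp h, orderOf_one] at ht; omega, rfl⟩).of_le
    ((centralizer_zpowers t).ge.trans (CC_le_NN _))

omit [Finite G] in
theorem SetA.dvd_of_mem {K : Subgroup G} {p i : ℕ} (hp : p.Prime) {a : G} (oa : orderOf a = p) (na : a ∉ K)
    (h : a ^ i ∈ K) : p ∣ i := by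
  by_contra hn
  exact na (zpowers_le.2 h (mem_zpowers_pow_iff.2 (oa ▸ ((Nat.Prime.coprime_iff_not_dvd hp).2 hn).symm)))

theorem rank3 (hQ : IsQuasithin G) {t : G} (ht : orderOf t = 2) {A B C : Subgroup G}
    (hA : A ≤ C1 t) (hB : B ≤ C1 t) (hC : C ≤ C1 t) (hAB : B ≤ CC A) (hAC : C ≤ CC A) (hBC : C ≤ CC B)
    {p : ℕ} (hp : p.Prime) (h2 : p ≠ 2) {a b c : G} (ha : a ∈ A) (hb : b ∈ B) (hc : c ∈ C)
    (oa : orderOf a = p) (ob : orderOf b = p) (oc : orderOf c = p) (na : a ∉ CC A) (nb : b ∉ CC B) :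
    False := by
  refine QT.not_pRankLE_two (K := C1 t) hp (x := ⟨a, hA ha⟩) (y := ⟨b, hB hb⟩) (z := ⟨c, hC hc⟩)
    (Subtype.ext (oa ▸ pow_orderOf_eq_one a)) (Subtype.ext (ob ▸ pow_orderOf_eq_one b))
    (Subtype.ext (oc ▸ pow_orderOf_eq_one c)) (Subtype.ext (comm_of_CC (hAB hb) ha))
    (Subtype.ext (comm_of_CC (hAC hc) ha)) (Subtype.ext (comm_of_CC (hBC hc) hb)) (fun i j k e => ?_)
    (SetA.rk2 hQ ht hp h2)
  have e' : a ^ i * b ^ j * c ^ k = 1 := congrArg Subtype.val e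
  have h1 : p ∣ i := SetA.dvd_of_mem hp oa na (by
    rw [mul_assoc] at e'
    rw [eq_inv_of_mul_eq_one_left e']
    exact inv_mem (mul_mem (pow_mem (hAB hb) j) (pow_mem (hAC hc) k)))
  rw [orderOf_dvd_iff_pow_eq_one.1 (oa ▸ h1), one_mul] at e'
  have h3 : p ∣ j := SetA.dvd_of_mem hp ob nb (eq_inv_of_mul_eq_one_left e' ▸ inv_mem (pow_mem (hBC hc) k))
  rw [orderOf_dvd_iff_pow_eq_one.1 (ob ▸ h3), one_mul] at e'
  exact ⟨h1, h3, oc ▸ orderOf_dvd_of_pow_eq_one e'⟩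

theorem Gl.zen2 (g : Gl G) {t : G} {J : Subgroup G} (ht : orderOf t = 2)
    (hJ : IsComponentOf J (C1 t)) : IsPGroup 2 (center J) := fun c => by
  obtain ⟨k, m, hm, e⟩ := Nat.exists_eq_two_pow_mul_odd (orderOf_pos c).ne'
  refine ⟨k, Subtype.ext (Subtype.ext ?_)⟩
  obtain ⟨y, hy⟩ : ∃ y : G, y = ((c ^ 2 ^ k : center J) : J) := ⟨_, rfl⟩
  have ho : orderOf y ∣ m := orderOf_dvd_of_pow_eq_one (by
    rw [hy, ← SubgroupClass.coe_pow, ← SubgroupClass.coe_pow, ← pow_mul, ← e, pow_orderOf_eq_one]; rfl)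
  have yJ : zpowers y ≤ J := zpowers_le.2 (hy ▸ (c ^ 2 ^ k : center J).1.2)
  have sn : SubnormalIn (zpowers y) (C1 t) := .step yJ (le_normalizer_of_le_centralizer (by
    rw [centralizer_zpowers]
    exact fun j hj => mem_C1.2
      (hy ▸ congrArg Subtype.val (mem_center_iff.1 (c ^ 2 ^ k : center J).2 ⟨j, hj⟩)))) hJ.subnormalIn
  have := le_pPrimeCore_of_isSubnormal (p := 2) sn.2 (by
    rw [Nat.card_congr (subgroupOfEquivOfLe sn.1).toEquiv, Nat.card_zpowers]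
    exact (hm.of_dvd_nat ho).coprime_two_right)
  rw [show pPrimeCore 2 (C1 t) = ⊥ from g.e1 t ht] at this
  exact hy.symm.trans (congrArg Subtype.val (mem_bot.1 (this (x := ⟨y, sn.1 (mem_zpowers y)⟩) (mem_zpowers y))))

theorem SetA.odd_elt (g : Gl G) {t : G} {J : Subgroup G} (ht : orderOf t = 2) (hJ : IsComponentOf J (C1 t)) :
    ∃ p : ℕ, p.Prime ∧ p ≠ 2 ∧ ∃ a ∈ J, orderOf a = p ∧ a ∉ CC J := by
  obtain ⟨p, hp, hd, h2⟩ : ∃ p : ℕ, p.Prime ∧ p ∣ Nat.card J ∧ p ≠ 2 := by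
    by_contra! hn
    exact hJ.isQuasisimple.not_isPGroup (p := 2)
      (IsPGroup.of_card (Nat.eq_prime_pow_of_unique_prime_dvd Nat.card_pos.ne' fun {d} h1 h2 => hn d h1 h2))
  have := Fact.mk hp
  obtain ⟨a, ha⟩ := exists_prime_orderOf_dvd_card' p hd
  refine ⟨p, hp, h2, a, a.2, (orderOf_coe a).trans ha, fun hc => ?_⟩
  obtain ⟨k, hk⟩ := g.zen2 ht hJ ⟨a, mem_center_iff.2 fun j => Subtype.ext (comm_of_CC hc j.2)⟩
  have : a ^ 2 ^ k = 1 := congrArg Subtype.val hk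
  exact h2 ((Nat.prime_dvd_prime_iff_eq hp Nat.prime_two).1
    (hp.dvd_of_dvd_pow (ha ▸ orderOf_dvd_of_pow_eq_one this)))

theorem SetA.two_conj (g : Gl G) (h2 : orderOf z = 2) (hL : IsComponentOf L (C1 z)) {v : G} (hu : u ∈ C1 z)
    (hv : v ∈ C1 z) (un : u ∉ NN L) (vn : v ∉ NN L) : u⁻¹ * v ∈ NN L := by
  by_contra hn
  obtain ⟨p, hp, p2, a, ha, oa, na⟩ := SetA.odd_elt g h2 hL
  have cu := hL.map_conj (le_normalizer hu)
  have cv := hL.map_conj (le_normalizer hv)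
  refine rank3 g.qt h2 hL.le cu.le cv.le (cu.le_centralizer_of_ne hL fun e => un (map_conj_eq_self_iff.1 e))
    (cv.le_centralizer_of_ne hL fun e => vn (map_conj_eq_self_iff.1 e))
    (cv.le_centralizer_of_ne cu fun e => hn (map_conj_eq_map_conj_iff.1 e)) hp p2 ha (conj_mem_map_conj.2 ha)
    (conj_mem_map_conj.2 ha) oa ((GT.orderOf_conj _ _).trans oa) ((GT.orderOf_conj _ _).trans oa) na fun e => na ?_
  rwa [CC, centralizer_map_conj, conj_mem_map_conj] at e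

theorem SetA.idx2 (g : Gl G) (h2 : orderOf z = 2) (hL : IsComponentOf L (C1 z)) {X : Subgroup G} (hX : X ≤ C1 z)
    (hu : u ∈ X) (un : u ∉ NN L) : (NN L).relIndex X = 2 :=
  relIndex_eq_two_iff_exists_notMem_and'.2 ⟨u⁻¹, inv_mem hu, fun e => un (inv_mem_iff.1 e), fun b hb =>
    or_iff_not_imp_right.2 (SetA.two_conj g h2 hL (hX hu) (hX hb) un)⟩

theorem exists_cf (g : Gl G) (S : Sylow 2 G) (hz : z ∈ (S : Subgroup G))
    (hc : ∀ t ∈ (S : Subgroup G), t * z = z * t) (h2 : orderOf z = 2) (K : Subgroup (C1 z))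
    (hK : IsComponent K) (hn : ¬ K.Normal) : ∃ u, Cf (S : Subgroup G) (K.map (C1 z).subtype) z u := by
  have : Fact (Nat.Prime 2) := ⟨Nat.prime_two⟩
  have hL := hK.isComponentOf_map_subtype
  have SC : (S : Subgroup G) ≤ C1 z := fun t ht => mem_C1.2 (hc t ht)
  obtain ⟨v, hv, vn⟩ := SetLike.not_le_iff_exists.1 (mt (normal_iff_le_normalizer_map_subtype K).2 hn)
  obtain ⟨u, hu, un⟩ := SetLike.not_le_iff_exists.1 fun hle : (S : Subgroup G) ≤ NN (K.map (C1 z).subtype) =>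
    S.not_dvd_index (((SetA.idx2 g h2 hL le_rfl hv vn).symm.dvd.trans (relIndex_dvd_of_le_left _ hle)).trans
      (relIndex_dvd_index_of_le SC))
  exact ⟨u, ⟨le_top, S.isPGroup', relIndex_top_right (S : Subgroup G) ▸ S.not_dvd_index⟩, h2, hz, SC, hL, hu, un,
    SetA.idx2 g h2 hL SC hu un⟩

theorem Cf.sq (h : Cf T L z u) : u * u ∈ NN L :=
  mul_self_mem_of_index_two h.idx ⟨u, h.uT⟩

theorem Cf.comm (h : Cf T L z u) : L ^ᶜ u ≤ CC L :=
  (h.comp.map_conj (le_normalizer (h.zc h.uT))).le_centralizer_of_ne h.comp fun e => h.un (map_conj_eq_self_iff.1 e)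

theorem Cf.inf_eq (h : Cf T L z u) : T ⊓ NN (L ^ᶜ u) = T ⊓ NN L := by
  have k : ∀ a ∈ T, ∀ b ∈ T, a * b ∈ NN L ↔ (a ∈ NN L ↔ b ∈ NN L) := fun a ha b hb =>
    mul_mem_iff_of_index_two h.idx (a := ⟨a, ha⟩) (b := ⟨b, hb⟩)
  ext t
  refine and_congr_right fun ht => ?_
  show t ∈ NN _ ↔ t ∈ NN L
  rw [NN, normalizer_map_conj, mem_map_conj, k _ (mul_mem (inv_mem h.uT) ht) _ h.uT, k _ (inv_mem h.uT) _ ht,
    inv_mem_iff]
  simp only [h.un, false_iff, iff_false, not_not]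

theorem Cf.swap (h : Cf T L z u) : Cf T (L ^ᶜ u) z u :=
  ⟨h.syl, h.z2, h.zT, h.zc, h.comp.map_conj (le_normalizer (h.zc h.uT)), h.uT,
    fun e => h.un (h.inf_eq.le ⟨h.uT, e⟩).2, by rw [← inf_relIndex_left, h.inf_eq, inf_relIndex_left, h.idx]⟩

theorem Cf.syl1 (g : Gl G) (h : Cf T L z u) : Syl (T ⊓ NN L) (C1 z ⊓ NN L) := by
  have s : Syl T (C1 z) := ⟨h.zc, h.syl.two, fun e => h.syl.idx
    (relIndex_top_right T ▸ e.trans (relIndex_dvd_index_of_le h.zc))⟩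
  have := s.inf (N := C1 z ⊓ NN L) inf_le_left fun c hc => mem_normalizer_iff_of_finite.2 fun n hn =>
    mem_inf.2 ⟨mul_mem (mul_mem hc hn.1) (inv_mem hc), by
      by_cases e : c ∈ NN L
      · exact mul_mem (mul_mem e (mem_inf.1 hn).2) (inv_mem e)
      · have := SetA.two_conj g h.z2 h.comp (inv_mem hc) (mul_mem hn.1 (inv_mem hc)) (fun e' => e (inv_mem_iff.1 e'))
          fun e' => e (inv_mem_iff.1 (((NN L).mul_mem_cancel_left hn.2).1 e'))
        rwa [inv_inv, ← mul_assoc] at this⟩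
  rwa [← inf_assoc, inf_eq_left.2 h.zc] at this

theorem Cf.oddCyc (g : Gl G) (h : Cf T L z u) : QT.OddCyc (L ⧸ center L) := fun p hp h2 => by
  have := Fact.mk hp
  refine QT.prankLE_one_of_surjective _ (QuotientGroup.mk'_surjective _) hp h2 ?_
  by_contra hn
  have cu := h.swap.comp
  refine QT.not_dvd_card_of_perfect hp h2 (SetA.rk2 g.qt h.z2 hp h2) ((L ^ᶜ u).subgroupOf (C1 z)) (L.subgroupOf (C1 z))
    cu.2.commutator_eq (fun a ha b hb => Subtype.ext (h.comm ha b hb))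
    (fun e => hn (e.of_mulEquiv (subgroupOfEquivOfLe h.comp.le))) ?_
  rw [Nat.card_congr (subgroupOfEquivOfLe cu.le).toEquiv, card_map_conj]
  by_contra hd
  exact hn ((PG.pRankLE_zero_iff.2 hd).mono hp.pos zero_le_one)

end Cfsg.Agent.QE
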