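import Mathlib
import Cfsg.Agent.QE.Defs
import Cfsg.Agent.QE.Set
import Cfsg.Agent.GT.Components
import Cfsg.Agent.Inv.TwoAut

/-! # S1848, piece QE-CBas: pairs of covers, basic facts (proof in stubs/Cfsg/Agent/QE/PLAN.md) -/

set_option autoImplicit false
set_option linter.unusedVariables false

namespace Cfsg.Agent.QE

open Cfsg Subgroup Cfsg.Agent.GT Cfsg.Agent.Inv Cfsg.Agent.Cmp
open scoped commutatorElement

universe u

variable {G : Type u} [Group G] [Finite G] {q : ℕ} {P : Subgroup G → Subgroup G → Prop}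
  {A B M N : Subgroup G}

namespace CBas

theorem perf_le {D K : Subgroup G} (hD : ⁅D, D⁆ = D) (hn : D ≤ NN K) (h : ∀ d ∈ D, ∃ k, d ^ 2 ^ k ∈ K) : D ≤ K := by
  have : (K.subgroupOf D).Normal := normal_subgroupOf_of_le_normalizer hn
  have h1 : IsPGroup 2 (D ⧸ K.subgroupOf D) := fun y => by
    obtain ⟨d, rfl⟩ := QuotientGroup.mk_surjective y
    obtain ⟨k, hk⟩ := h d d.2
    exact ⟨k, by rw [← QuotientGroup.mk_pow, QuotientGroup.eq_one_iff]; exact hk⟩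
  have := h1.isNilpotent
  have h2 : ⁅D.subgroupOf D, D.subgroupOf D⁆ = D.subgroupOf D := by rw [commutator_subgroupOf le_rfl le_rfl, hD]
  exact fun d hd => perfect_le_of_isSolvable_quotient (N := K.subgroupOf D) h2 inferInstance (x := ⟨d, hd⟩) hd

omit [Finite G] in
theorem inner (h : TcG q M) {D : Subgroup G} (hD : ⁅D, D⁆ = D) (hn : D ≤ NN M) {d : G} (hd : d ∈ D) :
    ∃ m ∈ M, ∃ c ∈ CC M, m * c = d := by
  refine exists_mul_of_mem_sup (CC_le_NN M) ((hD.ge.trans (commutator_le.2 fun a ha b hb => ?_)) hd)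
  obtain ⟨m, hm, h1⟩ := h.outc a (hn ha) b (hn hb)
  simpa using mul_mem (mem_sup_right h1 : _ ∈ M ⊔ CC M) (mem_sup_left hm)

omit [Finite G] in
theorem st2 {D : Subgroup G} (hD : ⁅D, D⁆ = D) (h : D ≤ St2 M N) : D ≤ NN M ⊓ NN N := by
  refine hD.ge.trans (commutator_le.2 fun a ha b hb => ?_)
  have e : ∀ {X Y : Subgroup G} {g : G}, X ^ᶜ g = Y → Y ^ᶜ g⁻¹ = X := fun h => (map_conj_eq_iff.1 h).symm
  rw [mem_inf, ← map_conj_eq_self_iff, ← map_conj_eq_self_iff, commutatorElement_def]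
  rcases h ha with ⟨h1, h2⟩ | ⟨h1, h2⟩ <;> rcases h hb with ⟨h3, h4⟩ | ⟨h3, h4⟩ <;>
    simp only [map_conj_mul, h1, h2, h3, h4, e h1, e h2, e h3, e h4, and_self]

omit [Finite G] in
theorem nc (h : TcG q A) {a : G} (ha : a ∈ A) {p : ℕ} (hp : p.Prime) (h2 : p ≠ 2) (ho : orderOf a = p) : a ∉ CC A :=
  fun hc => by
    obtain ⟨k, hk⟩ := Two.of_mem h.two ⟨ha, hc⟩
    exact h2 ((Nat.prime_dvd_prime_iff_eq hp Nat.prime_two).1 (hp.dvd_of_dvd_pow (ho ▸ orderOf_dvd_of_pow_eq_one hk)))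

theorem exp (h : TcG q A) : ∃ p, p.Prime ∧ p ≠ 2 ∧ ∃ a ∈ A, orderOf a = p := by
  by_contra hc
  refine h.qs.not_isPGroup (p := 2) (IsPGroup.iff_card.2 ⟨_, Nat.eq_prime_pow_of_unique_prime_dvd Nat.card_pos.ne' ?_⟩)
  intro p hp hd
  by_contra h2
  have := Fact.mk hp
  obtain ⟨a, ha⟩ := exists_prime_orderOf_dvd_card' p hd
  exact hc ⟨p, hp, h2, a, a.2, (orderOf_coe a).trans ha⟩

omit [Finite G] in
theorem zz_symm {x : G} (h : x ∈ ZZ A B) : x ∈ ZZ B A := ⟨sup_comm A B ▸ h.1, h.2.2, h.2.1⟩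

omit [Finite G] in
theorem elt (h : Fc q P) (hAB : P A B) (hMN : P M N) {a : G} (ha : a ∈ A) : ∃ m ∈ M, orderOf m = orderOf a := by
  obtain ⟨g, rfl, -⟩ := h.trans hAB hMN
  exact ⟨_, conj_mem_map_conj.2 ha, orderOf_conj a g⟩

omit [Finite G] in
theorem le_C1 {x : G} (h : x ∈ CC A) : A ≤ C1 x := fun _ ha => mem_C1.2 (comm_of_CC h ha)

theorem three (h : Fc q P) (hQ : IsQuasithin G) (hAB : P A B) (hMN : P M N) {x : G} (hm : x ∈ ZZ M N)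
    (h2 : orderOf x = 2) {C : Subgroup G} (h1 : C ≤ C1 x) (hM : C ≤ CC M) (hN : C ≤ CC N) {p : ℕ} (hp : p.Prime)
    (p2 : p ≠ 2) {a c : G} (ha : a ∈ A) (oa : orderOf a = p) (hc : c ∈ C) (oc : orderOf c = p) : False := by
  obtain ⟨m, h3, h4⟩ := elt h hAB hMN ha
  obtain ⟨n, h5, h6⟩ := elt h hAB (h.symm hMN) ha
  exact rank3 hQ h2 (le_C1 hm.2.1) (le_C1 hm.2.2) h1 (h.comm hMN) hM hN hp p2 h3 h5 hc (h4.trans oa) (h6.trans oa) oc
    (nc (h.ty hMN) h3 hp p2 (h4.trans oa)) (nc (h.ty (h.symm hMN)) h5 hp p2 (h6.trans oa))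

theorem ti0 (h : Fc q P) (hQ : IsQuasithin G) (hAB : P A B) (hMN : P M N) {x : G} (ha : x ∈ ZZ A B)
    (hm : x ∈ ZZ M N) (h2 : orderOf x = 2) : M = A ∨ M = B := by
  by_contra hc
  rw [not_or] at hc
  obtain ⟨p, hp, p2, m, h3, h4⟩ := exp (h.ty hMN)
  have h1 := h.comp hMN x hm h2
  exact three h hQ hMN hAB ha h2 h1.le (h1.le_centralizer_of_ne (h.comp hAB x ha h2) hc.1)
    (h1.le_centralizer_of_ne (h.comp (h.symm hAB) x (zz_symm ha) h2) hc.2) hp p2 h3 h4 h3 h4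

end CBas

open CBas

theorem TcG.pc (h : TcG q M) {D : Subgroup G} (hD : ⁅D, D⁆ = D) (hn : D ≤ NN M) {x : G} (hx : x ∈ M)
    (hc : x ∉ CC M) (h2 : Two x) (hd : ∀ d ∈ D, ⁅x, d⁆ ∈ CC M) : D ≤ CC M := by
  obtain ⟨n, h3, h4⟩ := h2.exists_pow_sq_mem hc
  have h5 : ∀ n : ℕ, ∀ d ∈ D, ⁅x ^ n, d⁆ ∈ CC M := fun n d hd' => by
    induction n with
    | zero => simp
    | succ n ih =>
      rw [pow_succ', commutatorElement_mul_left_eq_conj_mul, conj_eq_of_comm (comm_of_CC ih hx)]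
      exact mul_mem ih (hd d hd')
  refine perf_le hD (hn.trans (normalizer_le_normalizer_centralizer M)) fun d hd' => ?_
  obtain ⟨m, hm, c, hc', rfl⟩ := inner h hD hn hd'
  obtain ⟨k, hk⟩ := Fz.exists_pow_odd m
  have h6 := h5 n _ (pow_mem hd' (2 ^ k))
  have h7 := comm_of_CC (pow_mem hc' (2 ^ k)) (inv_mem (pow_mem hx n))
  refine ⟨k, ?_⟩
  rw [(comm_of_CC hc' hm).mul_pow] at h6 ⊢
  rw [show ⁅x ^ n, m ^ 2 ^ k * c ^ 2 ^ k⁆ = x ^ n * m ^ 2 ^ k * (c ^ 2 ^ k * (x ^ n)⁻¹ * (c ^ 2 ^ k)⁻¹) * (m ^ 2 ^ k)⁻¹ by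
    rw [commutatorElement_def]; group, conj_eq_of_comm h7.symm, ← commutatorElement_def] at h6
  rw [h.ci _ (pow_mem hx n) h3 h4 _ (pow_mem hm _) h6 hk, one_mul]
  exact pow_mem hc' _

theorem Fc.ti (h : Fc q P) (hQ : IsQuasithin G) (hAB : P A B) (hMN : P M N) {x : G} (ha : x ∈ ZZ A B)
    (hm : x ∈ ZZ M N) (h2 : orderOf x = 2) : (M = A ∧ N = B) ∨ (M = B ∧ N = A) := by
  have h1 : N ≠ M := fun e => (h.ty hMN).qs.not_le_centralizer (e.ge.trans (h.comm hMN))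
  rcases ti0 h hQ hAB hMN ha hm h2 with rfl | rfl <;>
    rcases ti0 h hQ hAB (h.symm hMN) ha (zz_symm hm) h2 with e | e
  exacts [absurd e h1, .inl ⟨rfl, e⟩, .inr ⟨rfl, e⟩, absurd e h1]

theorem Fc.cen (h : Fc q P) (hQ : IsQuasithin G) (hAB : P A B) {x : G} (ha : x ∈ ZZ A B)
    (h2 : orderOf x = 2) : C1 x ≤ St2 A B := fun c hc => by
  refine h.ti hQ hAB (h.conj c hAB) ha ?_ h2
  rw [← conj_eq_of_comm (mem_C1.1 hc)]
  exact ⟨map_conj_sup A B c ▸ conj_mem_map_conj.2 ha.1, conj_mem_CC c ha.2.1, conj_mem_CC c ha.2.2⟩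

theorem Fc.le (h : Fc q P) (hQ : IsQuasithin G) (hAB : P A B) (hMN : P M N) {x : G} (hm : x ∈ ZZ M N)
    (h2 : orderOf x = 2) (f : A →* G) (hf : f.range ≤ C1 x) : f.range ≤ M ⊔ N := by
  have hA := (h.ty hAB).qs
  have hD : ⁅f.range, f.range⁆ = f.range := by
    rw [f.range_eq_map]; exact perfect_map hA.commutator_eq_top f
  have hn := st2 hD (hf.trans (h.cen hQ hMN hm h2))
  obtain ⟨p, hp, p2, a, ha, oa⟩ := exp (h.ty hAB)
  obtain ⟨m, h3, c, h4, e⟩ := inner (h.ty hMN) hD (hn.trans inf_le_left) (⟨⟨a, ha⟩, rfl⟩ : f ⟨a, ha⟩ ∈ f.range)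
  obtain ⟨n, h5, c', h6, e'⟩ := inner (h.ty (h.symm hMN)) hD (hn.trans inf_le_right)
    (⟨⟨a, ha⟩, rfl⟩ : f ⟨a, ha⟩ ∈ f.range)
  have e1 : n⁻¹ * c = m⁻¹ * c' := by
    rw [inv_mul_eq_iff_eq_mul, ← mul_assoc, ← (comm_of_CC (h.comm hMN h5) (inv_mem h3)).eq, mul_assoc, e', ← e,
      inv_mul_cancel_left]
  have hK : n⁻¹ * c ∈ CC M ⊓ CC N :=
    mem_inf.2 ⟨mul_mem (inv_mem (h.comm hMN h5)) h4, e1 ▸ mul_mem (inv_mem (h.comm (h.symm hMN) h3)) h6⟩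
  have hK1 : CC M ⊓ CC N ≤ CC (M ⊔ N) := (centralizer_sup M N).ge
  have h7 : p.Coprime (orderOf (n⁻¹ * c)) := (Nat.Prime.coprime_iff_not_dvd hp).2 fun hd =>
    three h hQ hAB hMN hm h2 (fun k hk => mem_C1.2 (comm_of_CC (hK1 hk) hm.1).symm) inf_le_left inf_le_right hp p2 ha oa
      (pow_mem hK _) (orderOf_pow_orderOf_div (orderOf_pos _).ne' hd)
  have hmn : m * n ∈ M ⊔ N := mul_mem (mem_sup_left h3) (mem_sup_right h5)
  have h8 : f (⟨a, ha⟩ ^ orderOf (n⁻¹ * c)) ∈ M ⊔ N := by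
    rw [map_pow, ← e, show m * c = m * n * (n⁻¹ * c) by group, (comm_of_CC (hK1 hK) hmn).mul_pow,
      pow_orderOf_eq_one, mul_one]
    exact pow_mem hmn _
  have : ((M ⊔ N).comap f).Normal := ⟨fun y hy g => by
    rw [mem_comap, map_mul, map_mul, map_inv]
    exact conj_mem_of_mem_normalizer ((hn.trans (normalizer_inf_normalizer_le_normalizer_sup M N)) ⟨g, rfl⟩) hy⟩
  rcases hA.normal_eq_top_or_le_center ((M ⊔ N).comap f) with e2 | e2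
  · rintro _ ⟨y, rfl⟩
    exact e2.ge (mem_top y)
  · refine absurd ?_ (nc (h.ty hAB) (pow_mem ha (orderOf (n⁻¹ * c))) hp p2 ((Nat.Coprime.orderOf_pow (oa ▸ h7)).trans oa))
    have h9 := e2 h8
    rwa [center_eq_subgroupOf] at h9

theorem CBas.aux (h : Fc q P) (hAB : P A B) (hMN : P M N) (hA : A ≤ M ⊔ N) (hn : A ≤ NN M ⊓ NN N) {m n : G} (hm : m ∈ M)
    (hn' : n ∈ N) (h1 : m * n ∈ A ⊓ CC A) (h2 : m * n * (m * n) = 1) : m ∈ CC M ∨ m * n ∈ ZZ M N := by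
  refine or_iff_not_imp_left.2 fun hc => ?_
  have hA' := (h.ty hAB).qs.commutator_eq
  have c := comm_of_CC (h.comm hMN hn') hm
  have h3 : Two m := by
    rw [c.symm.mul_mul_mul_comm, mul_eq_one_iff_eq_inv] at h2
    obtain ⟨k, hk⟩ := Two.of_mem (h.ty hMN).two (x := m * m)
      (mem_inf.2 ⟨mul_mem hm hm, h2 ▸ inv_mem (h.comm hMN (mul_mem hn' hn'))⟩)
    exact ⟨k + 1, by rw [pow_succ', pow_mul, pow_two, hk]⟩
  have h4 : A ≤ CC M := (h.ty hMN).pc hA' (hn.trans inf_le_left) hm hc h3 fun d hd => by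
    have e := conj_eq_of_comm (comm_of_CC h1.2 hd)
    have h5 := h.comm hMN (mul_mem (conj_mem_of_mem_normalizer (hn hd).2 hn') (inv_mem hn'))
    rw [← conj_eq_of_comm (comm_of_CC h5 hm)] at h5
    rwa [show ⁅m, d⁆ = m * (d * n * d⁻¹) * (d * (m * n) * d⁻¹)⁻¹ by rw [commutatorElement_def]; group, e,
      show m * (d * n * d⁻¹) * (m * n)⁻¹ = m * (d * n * d⁻¹ * n⁻¹) * m⁻¹ by group]
  have h5 : ∀ a ∈ A, ∃ u ∈ CC (M ⊔ N), ∃ v ∈ N, u * v = a := fun a ha => by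
    obtain ⟨u, hu, v, hv, rfl⟩ := exists_mul_of_mem_sup ((h.comm hMN).trans (CC_le_NN M)) (hA ha)
    exact ⟨u, (centralizer_sup M N).ge ⟨(mul_mem_cancel_right (h.comm hMN hv)).1 (h4 ha), h.comm (h.symm hMN) hu⟩,
      v, hv, rfl⟩
  have h6 : A ≤ N := hA'.ge.trans (commutator_le.2 fun a ha b hb => by
    obtain ⟨u, hu, v, hv, rfl⟩ := h5 a ha
    obtain ⟨u', hu', v', hv', e⟩ := h5 b hb
    have e1 := conj_eq_of_comm (comm_of_CC hu' (inv_mem (mem_sup_right hv : v ∈ M ⊔ N))).symm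
    have e2 := conj_eq_of_comm (comm_of_CC hu (mul_mem (mul_mem (mem_sup_right hv) (hA hb))
      (inv_mem (mem_sup_right hv)))).symm
    have e3 := comm_of_CC hu' (mem_sup_right hv' : v' ∈ M ⊔ N)
    rw [show ⁅u * v, b⁆ = u * (v * b * v⁻¹) * u⁻¹ * b⁻¹ by rw [commutatorElement_def]; group, e2, ← e, ← e3.eq,
      show v * (v' * u') * v⁻¹ * (v' * u')⁻¹ = v * v' * (u' * v⁻¹ * u'⁻¹) * v'⁻¹ by group, e1]
    exact mul_mem (mul_mem (mul_mem hv hv') (inv_mem hv)) (inv_mem hv'))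
  obtain ⟨g, e, -⟩ := h.trans hAB (h.symm hMN)
  have h7 : A = N := eq_of_le_of_card_ge h6 (by rw [e, card_map_conj])
  exact ⟨hA h1.1, h4 h1.1, h7 ▸ h1.2⟩

theorem Fc.c1 (h : Fc q P) (hQ : IsQuasithin G) (hAB : P A B) (hMN : P M N) {x : G} (hm : x ∈ ZZ M N)
    (h2 : orderOf x = 2) (hc : x ∈ CC A) : (M = A ∧ N = B) ∨ (M = B ∧ N = A) := by
  have hA : A ≤ M ⊔ N := by
    simpa using h.le hQ hAB hMN hm h2 A.subtype (by simpa using le_C1 hc)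
  have hn := st2 (h.ty hAB).qs.commutator_eq ((le_C1 hc).trans (h.cen hQ hMN hm h2))
  obtain ⟨ζ, h1, h3⟩ := exists_inv_of_ne_bot (h.ty hAB).two (h.ty hAB).ne
  refine h.ti hQ hAB hMN ⟨mem_sup_left h1.1, h1.2, h.comm (h.symm hAB) h1.1⟩ ?_ h3
  have h4 : ζ * ζ = 1 := by rw [← pow_two, ← h3, pow_orderOf_eq_one]
  obtain ⟨m, h5, n, h6, rfl⟩ := exists_mul_of_mem_sup ((h.comm hMN).trans (CC_le_NN M)) (hA h1.1)
  have c := (comm_of_CC (h.comm hMN h6) h5).eq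
  refine (CBas.aux h hAB hMN hA hn h5 h6 h1 h4).elim (fun h7 => ?_) id
  refine (CBas.aux h hAB (h.symm hMN) (sup_comm M N ▸ hA) (inf_comm (NN M) (NN N) ▸ hn) h6 h5 (c ▸ h1)
    (c ▸ h4)).elim (fun h8 => ?_) fun h8 => c ▸ zz_symm h8
  exact ⟨hA h1.1, mul_mem h7 (h.comm hMN h6), mul_mem (h.comm (h.symm hMN) h5) h8⟩

end Cfsg.Agent.QE
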