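import Mathlib
import Cfsg.Agent.QE.Defs
import Cfsg.Agent.QE.CBas
import Cfsg.Agent.GT.PiGroups

/-! # S1848, piece QE-CIn: a central involution normalizing both factors (proof in stubs/Cfsg/Agent/QE/PLAN.md) -/

set_option autoImplicit false
set_option linter.unusedVariables false

namespace Cfsg.Agent.QE

open Cfsg Subgroup Cfsg.Agent.GT Cfsg.Agent.Inv Cfsg.Agent.Cmp
open scoped commutatorElement

universe u

variable {G : Type u} [Group G] [Finite G] {q : ℕ} {P : Subgroup G → Subgroup G → Prop}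
  {A B M N : Subgroup G}

namespace CIn

theorem two {Y Z C D : Subgroup G} {x : G} (nx : x ∉ C) (c1 : ∀ y ∈ Y, x * y ∉ C → x * y ∉ D → y ∈ Z)
    (c2 : ∀ y ∈ Y, y ∈ C → y ∈ D → y = 1) (c3 : ∀ y ∈ Y, y ∈ Z → y ∈ C → y = 1) :
    {y | y ∈ Y ∧ x * y ∈ C}.ncard ≤ 2 := by
  have h1 : ∀ w ∈ Y, w ∈ C → w ≠ 1 → x * w ∈ D := fun w hw hc h => by
    by_contra hn
    exact h (c3 w hw (c1 w hw (fun e => nx ((mul_mem_cancel_right hc).1 e)) hn) hc)
  have h2 : ∀ {K : Subgroup G} {a b : G}, x * a ∈ K → x * b ∈ K → a⁻¹ * b ∈ K := fun {K a b} ha hb => by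
    have := mul_mem (inv_mem ha) hb
    rwa [mul_inv_rev, mul_assoc, inv_mul_cancel_left] at this
  by_contra hn
  obtain ⟨a, ha, b, hb, c, hc, hab, hac, hbc⟩ := (Set.two_lt_ncard (Set.toFinite _)).1 (not_le.1 hn)
  have m1 := mul_mem (inv_mem ha.1) hb.1
  have m2 := mul_mem (inv_mem ha.1) hc.1
  have k1 := h2 ha.2 hb.2
  have k2 := h2 ha.2 hc.2
  have := c2 _ (mul_mem (inv_mem m1) m2) (mul_mem (inv_mem k1) k2)
    (h2 (h1 _ m1 k1 fun e => hab (inv_mul_eq_one.1 e)) (h1 _ m2 k2 fun e => hac (inv_mul_eq_one.1 e)))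
  exact hbc (mul_left_cancel (inv_mul_eq_one.1 this))

theorem count {Y Z C D : Subgroup G} {x : G} (nC : x ∉ C) (nD : x ∉ D)
    (c1 : ∀ y ∈ Y, x * y ∉ C → x * y ∉ D → y ∈ Z) (c2 : ∀ y ∈ Y, y ∈ C → y ∈ D → y = 1)
    (c3 : ∀ y ∈ Y, y ∈ Z → y ∈ C → y = 1) (c4 : ∀ y ∈ Y, y ∈ Z → y ∈ D → y = 1) :
    Nat.card Y ≤ Nat.card Z + 4 := by
  have h1 := two nC c1 c2 c3
  have h2 := two nD (fun y hy a b => c1 y hy b a) (fun y hy a b => c2 y hy b a) c4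
  have h3 : (Y : Set G) ⊆ (Z : Set G) ∪ ({y | y ∈ Y ∧ x * y ∈ C} ∪ {y | y ∈ Y ∧ x * y ∈ D}) := fun y hy => by
    by_cases a : x * y ∈ C
    · exact .inr (.inl ⟨hy, a⟩)
    by_cases b : x * y ∈ D
    · exact .inr (.inr ⟨hy, b⟩)
    · exact .inl (c1 y hy a b)
  have h4 := (Set.ncard_le_ncard h3).trans (Set.ncard_union_le _ _)
  have h5 := Set.ncard_union_le {y | y ∈ Y ∧ x * y ∈ C} {y | y ∈ Y ∧ x * y ∈ D}
  change Nat.card Y ≤ Nat.card Z + _ at h4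
  omega

omit [Finite G] in
theorem ZZ_comm (A B : Subgroup G) : ZZ A B = ZZ B A := by rw [ZZ, sup_comm, inf_comm (CC A)]

omit [Finite G] in
theorem ZZ_conj (A B : Subgroup G) (g : G) : ZZ (A ^ᶜ g) (B ^ᶜ g) = ZZ A B ^ᶜ g := by
  rw [map_conj_inf, map_conj_inf, map_conj_sup, ZZ, CC, CC, centralizer_map_conj, centralizer_map_conj]

omit [Finite G] in
theorem ZZ_le (h : B ≤ CC A) : ZZ A B ≤ (A ⊓ CC A) ⊔ (B ⊓ CC B) := fun y hy => by
  obtain ⟨a, ha, b, hb, rfl⟩ := exists_mul_of_mem_sup (h.trans (CC_le_NN A)) hy.1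
  exact mul_mem_sup (mem_inf.2 ⟨ha, (mul_mem_cancel_right (h hb)).1 hy.2.1⟩)
    (mem_inf.2 ⟨hb, (mul_mem_cancel_left (le_centralizer_iff.1 h ha)).1 hy.2.2⟩)

theorem card_E (h : B ≤ CC A) {E1 E2 : Subgroup G} (h1 : E1 ≤ A) (h2 : E2 ≤ B)
    (c1 : Nat.card E1 = q * Nat.card (A ⊓ CC A : Subgroup G)) (c2 : Nat.card E2 = q * Nat.card (B ⊓ CC B : Subgroup G)) :
    q * q * Nat.card (ZZ A B) ≤ Nat.card (E1 ⊔ E2 : Subgroup G) := by
  have h' : A ≤ CC B := le_centralizer_iff.1 h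
  have k1 := card_sup_mul_card_inf_of_le_normalizer (H := E1) (N := E2)
    (h1.trans (h'.trans ((centralizer_anti h2).trans (CC_le_NN _))))
  have k2 := card_sup_mul_card_inf_of_le_normalizer (H := A ⊓ CC A) (N := B ⊓ CC B)
    (inf_le_left.trans (h'.trans ((centralizer_anti inf_le_left).trans (CC_le_NN _))))
  have k3 : Nat.card (E1 ⊓ E2 : Subgroup G) ≤ Nat.card ((A ⊓ CC A) ⊓ (B ⊓ CC B) : Subgroup G) :=
    card_le_of_le fun y hy => mem_inf.2 ⟨mem_inf.2 ⟨h1 hy.1, h (h2 hy.2)⟩, mem_inf.2 ⟨h2 hy.2, h' (h1 hy.1)⟩⟩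
  have k4 := card_le_of_le (ZZ_le h)
  have k5 : 0 < Nat.card ((A ⊓ CC A) ⊓ (B ⊓ CC B) : Subgroup G) := Nat.card_pos
  refine (Nat.mul_le_mul_left _ k4).trans (Nat.le_of_mul_le_mul_right ?_ k5)
  calc _ = Nat.card (E1 ⊔ E2 : Subgroup G) * Nat.card (E1 ⊓ E2 : Subgroup G) := by
        rw [mul_assoc, k2, k1, c1, c2]; ring
    _ ≤ _ := Nat.mul_le_mul_left _ k3

theorem card_le_two {E : Subgroup G} (h : E ≤ St2 M N) : Nat.card E ≤ 2 * Nat.card (E ⊓ NN M : Subgroup G) := by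
  have h1 : (E ⊓ NN M).relIndex E ∣ 2 := by
    rw [relIndex_dvd_two_iff]
    by_cases h2 : E ≤ NN M
    · exact ⟨1, one_mem _, fun b hb => .inr (mem_inf.2 ⟨hb, h2 hb⟩)⟩
    obtain ⟨a, ha, h3⟩ := SetLike.not_le_iff_exists.1 h2
    refine ⟨a, ha, fun b hb => ?_⟩
    rcases h hb with e | e
    · exact .inr (mem_inf.2 ⟨hb, map_conj_eq_self_iff.1 e.1⟩)
    · refine .inl (mem_inf.2 ⟨mul_mem hb ha, map_conj_eq_self_iff.1 ?_⟩)
      rw [map_conj_mul, ((h ha).resolve_left fun e' => h3 (map_conj_eq_self_iff.1 e'.1)).1, e.2]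
  rw [← card_mul_relIndex (inf_le_left (a := E) (b := NN M)), mul_comm]
  exact Nat.mul_le_mul_right _ (Nat.le_of_dvd two_pos h1)

omit [Finite G] in
theorem el_comm {E : Subgroup G} (h : IsElementaryAbelian 2 E) {a b : G} (ha : a ∈ E) (hb : b ∈ E) : Commute a b :=
  haveI := h.1
  congrArg Subtype.val (mul_comm' (⟨a, ha⟩ : E) ⟨b, hb⟩)

omit [Finite G] in
theorem el_of {E : Subgroup G} (h : ∀ a ∈ E, a * a = 1) : IsElementaryAbelian 2 E :=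
  ⟨⟨⟨fun a b => Subtype.ext (by
      have h1 : ∀ a ∈ E, a⁻¹ = a := fun a ha => inv_eq_of_mul_eq_one_right (h a ha)
      have := h1 _ (mul_mem a.2 b.2)
      rw [mul_inv_rev, h1 _ a.2, h1 _ b.2] at this
      exact this.symm)⟩⟩, fun a ha => by rw [sq, h a ha]⟩

omit [Finite G] in
theorem sq_mem {x a : G} (h2 : x * x = 1) (ha : a ∈ A) (h : x * a⁻¹ ∈ CC A) : a * a ∈ CC A := by
  have h1 := (comm_of_CC h ha).eq
  have : a * a = (x * a⁻¹ * (x * a⁻¹))⁻¹ := by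
    refine eq_inv_of_mul_eq_one_right ?_
    calc x * a⁻¹ * (x * a⁻¹) * (a * a) = x * a⁻¹ * (x * a⁻¹ * a) * a := by group
      _ = x * x := by rw [← h1]; group
      _ = 1 := h2
  rw [this]
  exact inv_mem (mul_mem h h)

end CIn

open CIn in
theorem Fc.inn (h : Fc q P) (hQ : IsQuasithin G) (hAB : P A B) (hMN : P M N) {x : G} (hm : x ∈ ZZ M N)
    (h2 : orderOf x = 2) (ha : x ∈ NN A) (hb : x ∈ NN B) :
    (M = A ∧ N = B) ∨ (M = B ∧ N = A) := by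
  by_contra hn
  have hBA := h.symm hAB
  have TA := h.ty hAB
  have TB := h.ty hBA
  have cB : B ≤ CC A := h.comm hAB
  have cA : A ≤ CC B := h.comm hBA
  have nA : ∀ y ∈ ZZ M N, orderOf y = 2 → y ∉ CC A := fun y hy e hc => hn (h.c1 hQ hAB hMN hy e hc)
  have nB : ∀ y ∈ ZZ M N, orderOf y = 2 → y ∉ CC B := fun y hy e hc => hn (h.c1 hQ hBA hMN hy e hc).symm
  obtain ⟨a, aA, ka⟩ := TA.inn x ha (.of_two h2)
  obtain ⟨b, bB, kb⟩ := TB.inn x hb (.of_two h2)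
  have na : a ∉ CC A := fun e => nA x hm h2 ((mul_mem_cancel_right (inv_mem e)).1 ka)
  have nb : b ∉ CC B := fun e => nB x hm h2 ((mul_mem_cancel_right (inv_mem e)).1 kb)
  obtain ⟨E1, a1, l1, el1, -, c1, t1⟩ := TA.ex a aA na (sq_mem (mul_self_of_two h2) aA ka)
  obtain ⟨E2, b2, l2, el2, -, c2, t2⟩ := TB.ex b bB nb (sq_mem (mul_self_of_two h2) bB kb)
  have cm : ∀ {u v : G}, u ∈ A → v ∈ B → Commute u v := fun hu hv => comm_of_CC (cB hv) hu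
  obtain ⟨k, kA, kB, rfl⟩ : ∃ k ∈ CC A, k ∈ CC B ∧ x = k * a * b := by
    refine ⟨x * a⁻¹ * b⁻¹, mul_mem ka (inv_mem (cB bB)), ?_, ?_⟩
    · rw [mul_assoc, (cm (inv_mem aA) (inv_mem bB)).eq, ← mul_assoc]
      exact mul_mem kb (inv_mem (cA aA))
    · rw [mul_assoc x, (cm (inv_mem aA) (inv_mem bB)).eq]; group
  have dec : ∀ y ∈ E1 ⊔ E2, ∃ u ∈ E1, ∃ v ∈ E2, u * v = y := fun y hy =>
    exists_mul_of_mem_sup (l2.trans (cB.trans ((centralizer_anti l1).trans (CC_le_NN _)))) hy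
  have sqE : ∀ y ∈ E1 ⊔ E2, y * y = 1 := fun y hy => by
    obtain ⟨u, hu, v, hv, rfl⟩ := dec y hy
    rw [← sq, (cm (l1 hu) (l2 hv)).mul_pow, el1.2 u hu, el2.2 v hv, one_mul]
  have cx : E1 ⊔ E2 ≤ C1 (k * a * b) := sup_le
    (fun u hu => mem_C1.2 (((comm_of_CC kA (l1 hu)).mul_right (el_comm el1 hu a1)).mul_right (cm (l1 hu) bB)))
    fun v hv => mem_C1.2 (((comm_of_CC kB (l2 hv)).mul_right (cm aA (l2 hv)).symm).mul_right (el_comm el2 hv b2))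
  have k1 := card_E cB l1 l2 c1 c2
  have k2 := card_le_two (cx.trans (h.cen hQ hMN hm h2))
  have k3 := (h.ty hMN).bd ((E1 ⊔ E2) ⊓ NN M) inf_le_right (el_of fun y hy => sqE y hy.1)
  have k4 : Nat.card (ZZ M N) = Nat.card (ZZ A B) := by
    obtain ⟨g, rfl, rfl⟩ := h.trans hAB hMN
    rw [ZZ_conj, card_map_conj]
  have k5 : 2 ≤ Nat.card (ZZ A B) := by
    refine le_trans ?_ (card_le_of_le (H := A ⊓ CC A) fun y hy =>
      mem_inf.2 ⟨mem_sup_left hy.1, mem_inf.2 ⟨hy.2, cA hy.1⟩⟩)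
    exact (one_lt_card_iff_ne_bot _).2 TA.ne
  have inv : ∀ y ∈ (E1 ⊔ E2) ⊓ NN M ⊓ CC M, y ≠ 1 → orderOf y = 2 := fun y hy e => orderOf_two_of (sqE y hy.1.1) e
  have k6 : Nat.card ((E1 ⊔ E2) ⊓ NN M ⊓ CC M : Subgroup G) ≤ Nat.card (ZZ M N) + 4 := by
    refine count (nA _ hm h2) (nB _ hm h2) (fun y hy n1 n2 => ?_) (fun y hy h3 h4 => ?_)
      (fun y hy h3 h4 => by_contra fun e => nA y h3 (inv y hy e) h4)
      (fun y hy h3 h4 => by_contra fun e => nB y h3 (inv y hy e) h4)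
    · obtain ⟨u, hu, v, hv, rfl⟩ := dec y hy.1.1
      have e0 : k * a * b * (u * v) = k * (a * u) * (b * v) := by
        rw [mul_assoc (k * a), ← mul_assoc b, ← (cm (l1 hu) bB).eq]; group
      obtain ⟨g1, hg1, e1⟩ := t1 _ (mul_mem a1 hu) fun e => n1 (by
        rw [e0]; exact mul_mem (mul_mem kA e) (cB (mul_mem bB (l2 hv))))
      obtain ⟨g2, hg2, e2⟩ := t2 _ (mul_mem b2 hv) fun e => n2 (by
        rw [e0]; exact mul_mem (mul_mem kB (cA (mul_mem aA (l1 hu)))) e)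
      have e3 : g1 * g2 * (k * a * b) * (g1 * g2)⁻¹ = k * a * b * (u * v) := by
        have f1 : g1 * g2 * k * (g1 * g2)⁻¹ = k :=
          conj_eq_of_comm ((comm_of_CC kA hg1).mul_left (comm_of_CC kB hg2))
        have f2 : g1 * g2 * a * (g1 * g2)⁻¹ = a * u := by
          rw [← e1, mul_assoc g1 g2, ← (cm aA hg2).eq]; group
        have f3 : g1 * g2 * b * (g1 * g2)⁻¹ = b * v := by
          rw [← e2, (cm hg1 hg2).eq, mul_assoc g2 g1, (cm hg1 bB).eq]; group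
        rw [e0, ← f2, ← f3, ← conj_mul (b := g1 * g2), ← conj_mul (b := g1 * g2), f1]
      have e4 : k * a * b * (u * v) ∈ ZZ (M ^ᶜ (g1 * g2)) (N ^ᶜ (g1 * g2)) := by
        rw [ZZ_conj, ← e3]; exact conj_mem_map_conj.2 hm
      have e5 : k * a * b * (u * v) ∈ ZZ M N := by
        rcases h.c1 hQ hMN (h.conj _ hMN) e4 (by rw [← e3, orderOf_conj', h2]) (mul_mem hm.2.1 hy.2) with e | e
        · rwa [e.1, e.2] at e4
        · rwa [e.1, e.2, ZZ_comm] at e4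
      exact (mul_mem_cancel_left hm).1 e5
    · by_contra e
      rcases h.c1 hQ hMN hAB (mem_inf.2 ⟨sup_le_sup l1 l2 hy.1.1, mem_inf.2 ⟨h3, h4⟩⟩) (inv y hy e) hy.2 with e | e
      · exact hn (.inl ⟨e.1.symm, e.2.symm⟩)
      · exact hn (.inr ⟨e.2.symm, e.1.symm⟩)
  have q8 := TA.q8
  rw [k4] at k6
  have k7 : q * (q * Nat.card (ZZ A B)) ≤ q * (2 * (Nat.card (ZZ A B) + 4)) :=
    calc _ = q * q * Nat.card (ZZ A B) := by ring
      _ ≤ 2 * (q * (Nat.card (ZZ A B) + 4)) :=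
        k1.trans (k2.trans (Nat.mul_le_mul_left _ (k3.trans (Nat.mul_le_mul_left _ k6))))
      _ = _ := by ring
  have k8 := Nat.le_of_mul_le_mul_left k7 (by omega)
  have k9 := Nat.mul_le_mul_right (Nat.card (ZZ A B)) q8
  omega

end Cfsg.Agent.QE
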