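import Mathlib
import Cfsg.Agent.QE.Defs
import Cfsg.Agent.Gold.Comp
import Cfsg.Agent.FG.H93Len

/-! # S1848, piece QE-PU: pump-ups -/

set_option autoImplicit false
set_option linter.unusedVariables false

namespace Cfsg.Agent.QE

open Cfsg Subgroup Cfsg.Agent.GT Cfsg.Agent.Inv Cfsg.Agent.Cmp
open scoped commutatorElement

universe u

variable {G : Type*} [Group G] [Finite G]

theorem nod {z t : G} {S R J : Subgroup G} (hR : Syl R (C1 t)) (hS : S ≤ R) (hi : S.relIndex R ≤ 2)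
    (hz : z ∈ C1 t) (hc : S ≤ C1 z) (hJ : IsComponentOf J (C1 t))
    (h2 : IsPGroup 2 (center J)) : z ∈ NN J := by
  by_contra hn
  have hq := hJ.isQuasisimple
  have h1 : J ^ᶜ z ≤ CC J :=
    (hJ.map_conj (le_normalizer hz)).le_centralizer_of_ne hJ fun e => hn (Loc.Mss.cj_eq_iff.1 e)
  have h3 := (Loc.Mss.Syl.inf_subnormal (p := 2) ⟨hR.le, hR.two, hR.idx⟩ hJ.subnormalIn).nd
  have h4 : 4 ∣ (CC J).relIndex J := by
    have := FG.H93.four_dvd_of_not_solvable (hq.quotient (center J) hq.center_ne_top).not_isSolvable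
    rwa [← index_eq_card, ← centralizer_subgroupOf_self] at this
  have h5 : S ⊓ J ≤ CC J := fun s hs =>
    h1 (conj_eq_of_comm (mem_C1.1 (hc hs.1)).symm ▸ Loc.Mss.conj_mem_cj (g := z) hs.2)
  have h6 := h4.trans (relIndex_dvd_of_le_left J h5)
  rw [← relIndex_mul_relIndex (S ⊓ J) (R ⊓ J) J (inf_le_inf_right _ hS) inf_le_right] at h6
  have h7 : (S ⊓ J).relIndex (R ⊓ J) ≤ 2 := by
    rw [← inf_relIndex_right, inf_inf_inf_comm, inf_idem, inf_assoc, inf_relIndex_right]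
    exact (relIndex_le_of_le_right inf_le_left index_ne_zero_of_finite).trans hi
  have h8 : (S ⊓ J).relIndex (R ⊓ J) ≠ 0 := index_ne_zero_of_finite
  generalize (S ⊓ J).relIndex (R ⊓ J) = a at h6 h7 h8
  interval_cases a <;> omega

theorem pu {z t : G} {L : Subgroup G} (hz : orderOf z = 2) (hc : z ∈ C1 t)
    (hO : oddCore (C1 t) = ⊥) (hL : IsComponentOf L (C1 z)) (hLt : L ≤ C1 t)
    (hn : ∀ J, IsComponentOf J (C1 t) → z ∈ NN J) : ∃ J, IsComponentOf J (C1 t) ∧ L ≤ J := by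
  have hp := Nat.prime_two
  have hF : zpowers z ≤ C1 t := zpowers_le.2 hc
  have hF2 := (Two.of_two hz).isPGroup
  have hK : IsPComponentOf 2 L (C1 t ⊓ centralizer (zpowers z : Set G)) := by
    rw [centralizer_zpowers]
    exact (hL.mono (le_inf hLt hL.le) inf_le_right).isPComponentOf hp (by_contra fun h =>
      hL.isQuasisimple.not_isSolvable (S0205.result (Nat.odd_iff.2 (Nat.two_dvd_ne_zero.1 h))))
  obtain ⟨J, hJ, h1⟩ := Gold.exists_not_le_Cbar hF hF2 hK
  have hJ' : IsComponentOf J (C1 t) := hJ.isComponentOf ((hJ.isPQuasisimple hp).isQuasisimple_of_pPrimeCore_eq_bot hp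
    (pPrimeCoreOf_eq_bot_iff.1 (le_bot_iff.1 (hJ.pPrimeCoreOf_le.trans (pPrimeCoreOf_eq_bot_iff.2 hO).le))))
  exact ⟨J, hJ', (Gold.le_or_le_Cbar hJ hF hF2 (zpowers_le.2 (hn J hJ')) hK).resolve_right h1⟩

end Cfsg.Agent.QE
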